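import Mathlib
import Cfsg.Agent.H316.HT.Defs
import Cfsg.Agent.H112.HT.Ind
import Cfsg.Agent.H112.HT.Glue
import Cfsg.Agent.H624.HT.RowOf
import Cfsg.Agent.H53.HC.RgdLevi
import Cfsg.Agent.H69.OutCount
import Cfsg.Agent.H523.FpfCyc
import Cfsg.Agent.H700.PrinExt

/-!
# S4933: characters induced from linear characters of parabolic subgroups (helper561)

* `row_of_lin` : `Y` with cyclic `Out`, `H ≤ Y`, `l : H →* ℂˣ` of `p`-power order, Mackey's criterion, `p ∥ |Y : H|`,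
  the automorphisms of `p`-power order preserve `(H, l)` up to conjugacy: `Row p Y`;
* `exists_ext` : a character of `T` trivial on `T ∩ M_J` extends to `P_J`;
* `mackey_rgd` : Mackey's criterion for linear characters of `P_J` on minimal representatives;
* `row_of_rgd` : the row for a group with a root group datum of rank two.
-/

set_option autoImplicit false
set_option linter.unusedSectionVars false

open Cfsg Subgroup

namespace Cfsg.Agent.H561.HT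

open Cfsg.Agent.H316.HT Cfsg.Agent.Characters.Core Cfsg.Agent.H112.HT Cfsg.Agent.H523

universe u

section gen

variable {Y : Type u} [Group Y] {p : ℕ}

/-- `φ` preserves `(H, l)` up to conjugacy. -/
def Inv (H : Subgroup Y) (l : H →* ℂˣ) (φ : MulAut Y) : Prop :=
  ∃ c : Y, ∀ a : H, ∃ b : H, φ (a : Y) = c * b * c⁻¹ ∧ l b = l a

theorem Inv.one (H : Subgroup Y) (l : H →* ℂˣ) : Inv H l 1 :=
  ⟨1, fun a => ⟨a, by simp, rfl⟩⟩

theorem Inv.mul {H : Subgroup Y} {l : H →* ℂˣ} {φ θ : MulAut Y} (h1 : Inv H l φ) (h2 : Inv H l θ) :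
    Inv H l (φ * θ) := by
  obtain ⟨c, hc⟩ := h1
  obtain ⟨d, hd⟩ := h2
  refine ⟨φ d * c, fun a => ?_⟩
  obtain ⟨b, hb, hb'⟩ := hd a
  obtain ⟨b', hb1, hb2⟩ := hc b
  refine ⟨b', ?_, by rw [hb2, hb']⟩
  rw [MulAut.mul_apply, hb, map_mul, map_mul, map_inv, hb1]
  group

theorem Inv.pow {H : Subgroup Y} {l : H →* ℂˣ} {φ : MulAut Y} (h : Inv H l φ) (k : ℕ) : Inv H l (φ ^ k) := by
  induction k with
  | zero => rw [pow_zero]; exact Inv.one H l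
  | succ k ih => rw [pow_succ]; exact ih.mul h

/-- the elements of odd order, from the fourth powers -/
theorem inv_of_four {H : Subgroup Y} {l : H →* ℂˣ} (h : ∀ φ : MulAut Y, Inv H l (φ ^ 4)) (φ : MulAut Y)
    (ho : Odd (orderOf φ)) : Inv H l φ := by
  have h1 : Nat.Coprime 4 (orderOf φ) := by
    have h2 : Nat.Coprime 2 (orderOf φ) := (Nat.coprime_two_left).2 ho
    exact Nat.Coprime.mul_left h2 h2
  obtain ⟨m, hm⟩ := exists_pow_eq_self_of_coprime h1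
  rw [← hm]
  exact (h φ).pow m

/-- **The row from a linear character of a subgroup.** -/
theorem row_of_lin [Finite Y] [hp : Fact p.Prime] (hcyc : CycOut Y) (H : Subgroup Y) (l : H →* ℂˣ)
    (hl : ∃ k : ℕ, l ^ p ^ k = 1) (hmac : ∀ g : Y, (∀ a b : H, (b : Y) = g * a * g⁻¹ → l a = l b) → g ∈ H)
    (hidx : H.index.factorization p = 1)
    (hinv : ∀ φ : MulAut Y, (∃ k : ℕ, φ ^ p ^ k = 1) → Inv H l φ) : Row p Y := by
  classical
  intro A _ _ N hN ⟨e⟩ hC M hM P a ha _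
  have := Fintype.ofFinite Y
  have := Fintype.ofFinite A
  obtain ⟨χ, hχ, hχi, hχd⟩ := exists_mackey hM H l hl hmac
  set ψ : IrrCharacter N := H700.PrinExt.mapIrr e χ with hψ
  have hψm : ψ ∈ principalBlock M N := H700.PrinExt.mapIrr_mem e hχ
  have hψd : charDegree (ψ : N → ℂ) = H.index := by
    rw [hψ, H700.PrinExt.charDegree_mapIrr, hχd]
  -- the subgroup `N P`
  set K : Subgroup A := N ⊔ (P : Subgroup A) with hK
  have hNK : N ≤ K := le_sup_left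
  -- cyclicity of the quotient
  have hcycA : IsCyclic (Out Y) := by
    obtain ⟨β, hβ⟩ := hcyc
    refine ⟨⟨QuotientGroup.mk' (Inn Y) β, fun x => ?_⟩⟩
    obtain ⟨γ, rfl⟩ := QuotientGroup.mk'_surjective (Inn Y) x
    obtain ⟨g, k, rfl⟩ := hβ γ
    refine ⟨k, ?_⟩
    show (QuotientGroup.mk' (Inn Y) β) ^ k = QuotientGroup.mk' (Inn Y) (MulAut.conj g * β ^ k)
    rw [map_mul, map_zpow]
    have h1 : QuotientGroup.mk' (Inn Y) (MulAut.conj g) = 1 :=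
      (QuotientGroup.eq_one_iff _).2 ⟨g, rfl⟩
    rw [h1, one_mul]
  have hker : ((toOut N e).comp K.subtype).ker = N.subgroupOf K := by
    ext x
    rw [MonoidHom.mem_ker, Subgroup.mem_subgroupOf]
    have h1 := ker_toOut N e hC
    show toOut N e x = 1 ↔ _
    rw [← MonoidHom.mem_ker, h1]
  have hcycK : IsCyclic (↥K ⧸ N.subgroupOf K) := by
    have h1 : IsCyclic ((toOut N e).comp K.subtype).range := Subgroup.isCyclic _
    have h2 := isCyclic_of_surjective (QuotientGroup.quotientKerEquivRange ((toOut N e).comp K.subtype)).symm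
      (QuotientGroup.quotientKerEquivRange ((toOut N e).comp K.subtype)).symm.surjective
    exact isCyclic_of_surjective (QuotientGroup.quotientMulEquivOfEq hker)
      (QuotientGroup.quotientMulEquivOfEq hker).surjective
  -- invariance
  have hinvP : ∀ x ∈ (P : Subgroup A), ∀ n : N, (ψ : N → ℂ) ⟨x * n * x⁻¹, hN.conj_mem _ n.2 x⟩ = (ψ : N → ℂ) n := by
    intro x hx n
    have hxk : ∃ k : ℕ, (act N e x) ^ p ^ k = 1 := by
      obtain ⟨k, hk⟩ := P.isPGroup' ⟨x, hx⟩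
      refine ⟨k, ?_⟩
      rw [← map_pow]
      have h1 : x ^ p ^ k = 1 := congrArg Subtype.val hk
      rw [h1, map_one]
    obtain ⟨c, hc⟩ := hinv _ hxk
    have h1 : (χ : Y → ℂ) (act N e x (e n)) = (χ : Y → ℂ) (e n) := by
      rw [hχi]
      refine ind_inv H _ (act N e x) c (fun a => ?_) (e n)
      obtain ⟨b, hb, hb'⟩ := hc a
      exact ⟨b, hb, by rw [hb']⟩
    have h2 : (ψ : N → ℂ) n = (χ : Y → ℂ) (e n) := rfl
    have h3 : (ψ : N → ℂ) ⟨x * n * x⁻¹, hN.conj_mem _ n.2 x⟩ =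
        (χ : Y → ℂ) (e ⟨x * n * x⁻¹, hN.conj_mem _ n.2 x⟩) := rfl
    rw [h2, h3, ← h1, act_apply]
    congr 3
    simp
  have hinvK : ∀ x ∈ K, ∀ n : N, (ψ : N → ℂ) ⟨x * n * x⁻¹, hN.conj_mem _ n.2 x⟩ = (ψ : N → ℂ) n := by
    intro x hx n
    rw [hK, Subgroup.mem_sup_of_normal_left] at hx
    obtain ⟨y, hy, z, hz, rfl⟩ := hx
    rw [← hinvP z hz n]
    have h1 := isIrr_isClassFunction ψ.2 ⟨z * n * z⁻¹, hN.conj_mem _ n.2 z⟩ ⟨y, hy⟩
    rw [← h1]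
    refine congrArg (ψ : N → ℂ) (Subtype.ext ?_)
    simp [mul_assoc]
  -- the extension
  have hN' : (N.subgroupOf K).Normal := inferInstance
  let f : N.subgroupOf K ≃* N := Subgroup.subgroupOfEquivOfLe hNK
  set ψ' : IrrCharacter (N.subgroupOf K) := H700.PrinExt.mapIrr f ψ with hψ'
  have hψ'm : ψ' ∈ principalBlock M (N.subgroupOf K) := H700.PrinExt.mapIrr_mem f hψm
  obtain ⟨ξ, hξ, hξr, hξd⟩ := lift_mem hM (N.subgroupOf K) hcycK ψ' hψ'm (by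
    intro g t
    have h1 : (ψ' : N.subgroupOf K → ℂ) (MulAut.conjNormal g t) = (ψ : N → ℂ) (f (MulAut.conjNormal g t)) := rfl
    have h2 : (ψ' : N.subgroupOf K → ℂ) t = (ψ : N → ℂ) (f t) := rfl
    rw [h1, h2, ← hinvK g g.2 (f t)]
    rfl)
  have hξψ : ∀ n : N, (ξ : K → ℂ) ⟨n, hNK n.2⟩ = (ψ : N → ℂ) n := by
    intro n
    have h1 := hξr ⟨⟨n, hNK n.2⟩, n.2⟩
    rw [h1]
    rfl
  have hd : charDegree (ξ : K → ℂ) = H.index := by
    rw [hξd, hψ', H700.PrinExt.charDegree_mapIrr, hψd]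
  refine H624.HT.goodOn_of hM N P ψ hψm K hK ξ ?_ ?_ ?_ ?_
  · intro _
    have h1 : (fun n : N => (ξ : K → ℂ) ⟨n, hK ▸ Subgroup.mem_sup_left n.2⟩) = (ψ : N → ℂ) := by
      funext n
      exact hξψ n
    rw [h1, classInner_irr_self ψ.2]
    exact one_ne_zero
  · unfold vd
    rw [hd, hidx]
    exact ha
  · left
    rw [hψd]
    exact Nat.dvd_of_factorization_pos (by rw [hidx]; exact one_ne_zero)
  · intro h1
    have h2 : charDegree (ψ : N → ℂ) = 1 := by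
      rw [h1]
      unfold charDegree
      simp
    rw [hψd] at h2
    rw [h2] at hidx
    simp at hidx

end gen

section rgd

open CoxeterSystem Cfsg.Agent.ChevalleyStructure.CoxeterGeom Cfsg.Agent.Tits.Roots Cfsg.Agent.Tits.Core
  Cfsg.Agent.Tits.Exchange Cfsg.Agent.Nodes.Reps Cfsg.Agent.Nodes.BNOf Cfsg.Agent.Nodes.StabComb
  Cfsg.Agent.Nodes.Bruhat Cfsg.Agent.Nodes.OppDec Cfsg.Agent.Nodes.LeviDec Cfsg.Agent.H53.HC
  Cfsg.Agent.KFacts.RgdAut Cfsg.Agent.KFacts.RgdDiag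

variable {I W : Type*} {Y : Type u} [Fintype I] [DecidableEq I] [Group W] [Group Y] {M : CoxeterMatrix I}
  {cs : CoxeterSystem M W} {A : I → I → ℤ} {h : IsCartan M A} {r : ℕ} {T : Subgroup Y} {n : I → Y}
  {X : (I → ℤ) → Subgroup Y}

theorem T_le_PJ {J : Set I} : T ≤ PJ cs h T X J := le_trans le_sup_left LJ_le_PJ

theorem MJ_le_PJ {J : Set I} : MJ cs h X J ≤ PJ cs h T X J := le_trans (MJ_le_LJ J) LJ_le_PJ

variable (R : RGD cs h r T n X)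

include R

/-- **Extension of characters of `T` trivial on `T ∩ M_J` to `P_J`.** -/
theorem exists_ext [Finite W] (J : Set I) (l₀ : T →* ℂˣ) (h0 : ∀ t : T, (t : Y) ∈ MJ cs h X J → l₀ t = 1) :
    ∃ l : ↥(PJ cs h T X J) →* ℂˣ, (∀ t : T, l ⟨t, T_le_PJ t.2⟩ = l₀ t) ∧
      (∀ m (hm : m ∈ MJ cs h X J), l ⟨m, MJ_le_PJ hm⟩ = 1) ∧
      ∀ v (hv : v ∈ VJ cs h X J), l ⟨v, VJ_le_PJ hv⟩ = 1 := by
  obtain ⟨π, hπ1, hπ2⟩ := exists_projL R J
  set M' := (MJ cs h X J).subgroupOf (LJ cs h T X J) with hM'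
  have hn : M'.Normal := (Subgroup.normal_subgroupOf_iff_le_normalizer (MJ_le_LJ J)).2 (LJ_le_normalizer_MJ R J)
  have hTL : T ≤ LJ cs h T X J := le_sup_left
  let f : T →* ↥(LJ cs h T X J) ⧸ M' := (QuotientGroup.mk' M').comp (Subgroup.inclusion hTL)
  have hf : Function.Surjective f := by
    intro q
    obtain ⟨⟨g, hg⟩, rfl⟩ := QuotientGroup.mk'_surjective M' q
    obtain ⟨t, ht, m, hm, rfl⟩ := (mem_LJ_iff_mul R J).1 hg
    refine ⟨⟨t, ht⟩, ?_⟩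
    refine (QuotientGroup.eq (s := M')).2 ?_
    rw [hM', Subgroup.mem_subgroupOf]
    have e : ((((Subgroup.inclusion hTL ⟨t, ht⟩)⁻¹ * ⟨t * m, hg⟩ : ↥(LJ cs h T X J))) : Y) = m := by
      change t⁻¹ * (t * m) = m
      group
    rw [e]
    exact hm
  have hker : f.ker ≤ l₀.ker := by
    intro t ht
    rw [MonoidHom.mem_ker]
    have h1 : Subgroup.inclusion hTL t ∈ M' := (QuotientGroup.eq_one_iff _).1 ht
    rw [hM', Subgroup.mem_subgroupOf] at h1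
    exact h0 t h1
  let l1 : ↥(LJ cs h T X J) ⧸ M' →* ℂˣ := f.liftOfSurjective hf ⟨l₀, hker⟩
  have hl1 : ∀ t, l1 (f t) = l₀ t := fun t => MonoidHom.liftOfRightInverse_comp_apply _ _ _ _ t
  refine ⟨(l1.comp (QuotientGroup.mk' M')).comp π, fun t => ?_, fun m hm => ?_, fun v hv => ?_⟩
  · show l1 (QuotientGroup.mk' M' (π ⟨t, _⟩)) = _
    rw [hπ1 t (hTL t.2)]
    exact hl1 t
  · show l1 (QuotientGroup.mk' M' (π ⟨m, _⟩)) = _
    rw [hπ1 m (MJ_le_LJ J hm)]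
    have h1 : QuotientGroup.mk' M' ⟨m, MJ_le_LJ J hm⟩ = 1 := by
      refine (QuotientGroup.eq_one_iff _).2 ?_
      rw [hM', Subgroup.mem_subgroupOf]
      exact hm
    rw [h1, map_one]
  · show l1 (QuotientGroup.mk' M' (π ⟨v, _⟩)) = _
    rw [hπ2 v hv, map_one, map_one]

/-- **Mackey's criterion** for linear characters of `P_J` on representatives. -/
theorem mackey_rgd [Finite W] (hG : GG cs h T X = ⊤) (J : Set I) (l : ↥(PJ cs h T X J) →* ℂˣ)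
    (hs : ∀ w g, Rp cs R.nsys w g → w ∉ WJ cs J → (∀ i ∈ J, 0 ≤ rep cs h w⁻¹ (sr i)) →
      (∀ i ∈ J, 0 ≤ rep cs h w (sr i)) → ∃ (t t' : T), (t' : Y) = g * t * g⁻¹ ∧
        l ⟨t', T_le_PJ t'.2⟩ ≠ l ⟨t, T_le_PJ t.2⟩)
    (g : Y) (hg : ∀ a b : ↥(PJ cs h T X J), (b : Y) = g * a * g⁻¹ → l a = l b) : g ∈ PJ cs h T X J := by
  by_contra hx
  obtain ⟨a, ha, b, hb, w, k, hk, e, hwJ, h1, h2⟩ := exists_min_rep R hG J hx
  obtain ⟨t, t', ht', hne⟩ := hs w k hk hwJ h1 h2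
  apply hne
  have h3 := hg ((⟨b, hb⟩ : ↥(PJ cs h T X J))⁻¹ * ⟨t, T_le_PJ t.2⟩ * ⟨b, hb⟩)
    (⟨a, ha⟩ * ⟨t', T_le_PJ t'.2⟩ * (⟨a, ha⟩ : ↥(PJ cs h T X J))⁻¹) (by
      show a * t' * a⁻¹ = g * (b⁻¹ * t * b) * g⁻¹
      rw [ht', e]
      group)
  rw [map_mul, map_mul, map_mul, map_mul, map_inv, map_inv, mul_comm, mul_inv_cancel_left, mul_comm (l ⟨a, ha⟩),
    mul_inv_cancel_right] at h3
  exact h3.symm

omit R in
theorem Fix.sup' {β : MulAut Y} {H H' : Subgroup Y} (h1 : Fix β H) (h2 : Fix β H') : Fix β (H ⊔ H') := by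
  rw [fix_iff] at h1 h2 ⊢
  rw [Subgroup.map_sup, h1, h2]

/-- frame automorphisms fixing the nodes fix the subgroups generated by root groups -/
theorem fix_sup_of_diag [Finite W] {β : MulAut Y} (D : Diag T X β 1) (S : Set (I → ℤ))
    (hS : ∀ x ∈ S, IsRoot cs h x) : Fix β (RGD.Sup X S) := by
  have key : ∀ β : MulAut Y, Diag T X β 1 → ∀ x, x ∈ RGD.Sup X S → β x ∈ RGD.Sup X S := by
    intro β D x hx
    have h1 : RGD.Sup X S ≤ (RGD.Sup X S).comap β.toMonoidHom := by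
      refine RGD.Sup_le fun b hbS y hy => RGD.le_Sup hbS ?_
      have h2 := (D.root_comp R (fun i j => rfl) (hS b hbS) y).2 hy
      exact h2
    exact h1 hx
  intro x
  refine ⟨fun hx => ?_, key β D x⟩
  have h1 := key β⁻¹ (by
    have := D.inv
    rwa [inv_one] at this) _ hx
  rwa [MulAut.inv_apply_self] at h1

theorem fix_MJ_of_diag [Finite W] {β : MulAut Y} (D : Diag T X β 1) (J : Set I) : Fix β (MJ cs h X J) :=
  fix_sup_of_diag R D _ fun _ hx => hx.1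

theorem fix_VJ_of_diag [Finite W] {β : MulAut Y} (D : Diag T X β 1) (J : Set I) : Fix β (VJ cs h X J) :=
  fix_sup_of_diag R D _ fun _ hx => hx.1

theorem fix_PJ_of_diag [Finite W] {β : MulAut Y} (D : Diag T X β 1) (J : Set I) : Fix β (PJ cs h T X J) :=
  Fix.sup' (Fix.sup' D.tor (fix_MJ_of_diag R D J)) (fix_VJ_of_diag R D J)

theorem isPGroup_X' [Finite W] {b : I → ℤ} (hb : IsRoot cs h b) : IsPGroup r ↥(X b) := by
  obtain ⟨w, i, rfl⟩ := hb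
  obtain ⟨k, hk⟩ := exists_rp cs R.nsys w
  rintro ⟨x, hx⟩
  have h1 := R.conj_mem' hk ((isRoot_sr cs h i).act w) hx
  rw [rep_inv_apply] at h1
  obtain ⟨m, hm⟩ := R.pgrp i ⟨_, h1⟩
  refine ⟨m, Subtype.ext ?_⟩
  have h2 : (k⁻¹ * x * k) ^ r ^ m = 1 := congrArg Subtype.val hm
  have h3 : (k⁻¹ * x * k) ^ r ^ m = k⁻¹ * x ^ r ^ m * k := by
    have := conj_pow (i := r ^ m) (a := k⁻¹) (b := x)
    rw [inv_inv] at this
    exact this
  rw [h3] at h2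
  show x ^ r ^ m = 1
  have h4 : x ^ r ^ m = k * (k⁻¹ * x ^ r ^ m * k) * k⁻¹ := by group
  rw [h4, h2, mul_one, mul_inv_cancel]

/-- a character of order `p ≠ r` is trivial on the subgroups generated by root groups -/
theorem eq_one_of_sup [Finite W] [hr : Fact r.Prime] {p : ℕ} [hp : Fact p.Prime] (hpr : p ≠ r) (P : Subgroup Y)
    (l : P →* ℂˣ) (hl : l ^ p = 1) (S : Set (I → ℤ)) (hS : ∀ x ∈ S, IsRoot cs h x) (hSP : RGD.Sup X S ≤ P)
    {x : Y} (hx : x ∈ RGD.Sup X S) : l ⟨x, hSP hx⟩ = 1 := by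
  have h1 : RGD.Sup X S ≤ l.ker.map P.subtype := by
    refine RGD.Sup_le fun b hb y hy => ?_
    have hyP : y ∈ P := hSP (RGD.le_Sup hb hy)
    refine ⟨⟨y, hyP⟩, ?_, rfl⟩
    show l ⟨y, hyP⟩ = 1
    obtain ⟨m, hm⟩ := isPGroup_X' R (hS b hb) ⟨y, hy⟩
    have h20 : y ^ r ^ m = 1 := congrArg Subtype.val hm
    have h2 : (⟨y, hyP⟩ : P) ^ r ^ m = 1 := Subtype.ext h20
    have h3 : orderOf (l ⟨y, hyP⟩) ∣ r ^ m := by
      rw [orderOf_dvd_iff_pow_eq_one, ← map_pow, h2, map_one]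
    have h4 : orderOf (l ⟨y, hyP⟩) ∣ p := by
      rw [orderOf_dvd_iff_pow_eq_one]
      have := congrArg (fun f : P →* ℂˣ => f ⟨y, hyP⟩) hl
      simpa using this
    have h5 : Nat.Coprime p (r ^ m) := Nat.Coprime.pow_right _ ((Nat.coprime_primes hp.out hr.out).2 hpr)
    exact orderOf_eq_one_iff.1 (Nat.eq_one_of_dvd_coprimes h5 h4 h3)
  obtain ⟨y, hy, e⟩ := h1 hx
  have h2 : (⟨x, hSP hx⟩ : P) = y := Subtype.ext e.symm
  rw [h2]
  exact hy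

/-- **The characters of order `p` of `P_J` are the powers of one of them**, if `T / (T ∩ M_J)` is cyclic. -/
theorem exists_pow [Finite W] [hr : Fact r.Prime] {p : ℕ} [hp : Fact p.Prime] (hpr : p ≠ r) (J : Set I)
    (l l' : ↥(PJ cs h T X J) →* ℂˣ) (hl : l ^ p = 1) (hl' : l' ^ p = 1) (t₀ : T)
    (hne : l ⟨t₀, T_le_PJ t₀.2⟩ ≠ 1) (hcyc : ∀ t : T, ∃ k : ℕ, ((t₀ : Y) ^ k)⁻¹ * t ∈ MJ cs h X J) :
    ∃ k : ℕ, l' = l ^ k := by
  have ev : ∀ {f : ↥(PJ cs h T X J) →* ℂˣ}, f ^ p = 1 → ∀ x, f x ^ p = 1 := by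
    intro f hf x
    have := congrArg (fun f : ↥(PJ cs h T X J) →* ℂˣ => f x) hf
    simpa using this
  have hz : IsPrimitiveRoot (l ⟨t₀, T_le_PJ t₀.2⟩) p := by
    have h1 := orderOf_eq_prime (ev hl ⟨t₀, T_le_PJ t₀.2⟩) hne
    have h2 := IsPrimitiveRoot.orderOf (l ⟨t₀, T_le_PJ t₀.2⟩)
    rwa [h1] at h2
  have hpne : NeZero p := ⟨hp.out.ne_zero⟩
  obtain ⟨k, -, hk0⟩ := (IsPrimitiveRoot.coe_units_iff.2 hz).eq_pow_of_pow_eq_one
    (congrArg Units.val (ev hl' ⟨t₀, T_le_PJ t₀.2⟩))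
  have hk : l ⟨t₀, T_le_PJ t₀.2⟩ ^ k = l' ⟨t₀, T_le_PJ t₀.2⟩ := Units.ext (by
    rw [Units.val_pow_eq_pow_val]
    exact hk0)
  refine ⟨k, ?_⟩
  have hM : ∀ {f : ↥(PJ cs h T X J) →* ℂˣ}, f ^ p = 1 → ∀ m (hm : m ∈ MJ cs h X J), f ⟨m, MJ_le_PJ hm⟩ = 1 :=
    fun hf m hm => eq_one_of_sup R hpr _ _ hf _ (fun _ hx => hx.1) MJ_le_PJ hm
  have hV : ∀ {f : ↥(PJ cs h T X J) →* ℂˣ}, f ^ p = 1 → ∀ m (hm : m ∈ VJ cs h X J), f ⟨m, VJ_le_PJ hm⟩ = 1 :=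
    fun hf m hm => eq_one_of_sup R hpr _ _ hf _ (fun _ hx => hx.1) VJ_le_PJ hm
  have hT : ∀ {f : ↥(PJ cs h T X J) →* ℂˣ}, f ^ p = 1 → ∀ t : T, ∀ k : ℕ, ((t₀ : Y) ^ k)⁻¹ * t ∈ MJ cs h X J →
      f ⟨t, T_le_PJ t.2⟩ = f ⟨t₀, T_le_PJ t₀.2⟩ ^ k := by
    intro f hf t k hk
    have h1 := hM hf _ hk
    have h2 : (⟨((t₀ : Y) ^ k)⁻¹ * t, MJ_le_PJ hk⟩ : ↥(PJ cs h T X J)) =
        ((⟨t₀, T_le_PJ t₀.2⟩ : ↥(PJ cs h T X J)) ^ k)⁻¹ * ⟨t, T_le_PJ t.2⟩ := rfl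
    rw [h2, map_mul, map_inv, map_pow, inv_mul_eq_one] at h1
    exact h1.symm
  have hlk : (l ^ k) ^ p = 1 := MonoidHom.ext fun x => by
    simp only [MonoidHom.pow_apply, MonoidHom.one_apply]
    rw [← pow_mul, mul_comm, pow_mul, ev hl, one_pow]
  refine MonoidHom.ext ?_
  rintro ⟨x, hx⟩
  obtain ⟨a, ha, v, hv, rfl⟩ := (mem_PJ R).1 hx
  obtain ⟨t, ht, m, hm, rfl⟩ := (mem_LJ_iff_mul R J).1 ha
  have e : (⟨t * m * v, hx⟩ : ↥(PJ cs h T X J)) = ⟨t, T_le_PJ ht⟩ * ⟨m, MJ_le_PJ hm⟩ * ⟨v, VJ_le_PJ hv⟩ := rfl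
  rw [e, map_mul, map_mul, map_mul, map_mul, hM hl' m hm, hV hl' v hv, hM hlk m hm, hV hlk v hv]
  obtain ⟨j, hj⟩ := hcyc ⟨t, ht⟩
  rw [hT hl' ⟨t, ht⟩ j hj, hT hlk ⟨t, ht⟩ j hj]
  rw [MonoidHom.pow_apply, hk]

end rgd

section two

open CoxeterSystem Cfsg.Agent.ChevalleyStructure.CoxeterGeom Cfsg.Agent.Tits.Roots Cfsg.Agent.Tits.Core
  Cfsg.Agent.Tits.Exchange Cfsg.Agent.Nodes.Reps Cfsg.Agent.Nodes.BNOf Cfsg.Agent.Nodes.StabComb
  Cfsg.Agent.Nodes.Bruhat Cfsg.Agent.Nodes.OppDec Cfsg.Agent.Nodes.LeviDec Cfsg.Agent.H53.HC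
  Cfsg.Agent.KFacts.RgdAut Cfsg.Agent.KFacts.RgdDiag

variable {W : Type*} {Y : Type u} [Group W] [Group Y] {M : CoxeterMatrix (Fin 2)}
  {cs : CoxeterSystem M W} {A : Fin 2 → Fin 2 → ℤ} {h : IsCartan M A} {r : ℕ} {T : Subgroup Y} {n : Fin 2 → Y}
  {X : (Fin 2 → ℤ) → Subgroup Y}

variable (R : RGD cs h r T n X)

include R

/-- **Invariance** of the characters of order 3 of the parabolic subgroups in rank two. -/
theorem inv_two [Finite W] [Finite Y] [hr : Fact r.Prime] (hG1 : RGD.Sup X {x | IsRoot cs h x} = ⊤)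
    (hpr : 3 ≠ r) (J : Set (Fin 2)) (l : ↥(PJ cs h T X J) →* ℂˣ) (hl : l ^ 3 = 1) (t₀ : T)
    (hne : l ⟨t₀, T_le_PJ t₀.2⟩ ≠ 1) (hcyc : ∀ t : T, ∃ k : ℕ, ((t₀ : Y) ^ k)⁻¹ * t ∈ MJ cs h X J)
    (φ : MulAut Y) : Inv (PJ cs h T X J) l (φ ^ 4) := by
  have hp : Fact (Nat.Prime 3) := ⟨Nat.prime_three⟩
  obtain ⟨g, σ, D⟩ := Cfsg.Agent.H69.OutCount.exists_diag_conj R hG1 φ
  have hσ' : ∀ σ : Equiv.Perm (Fin 2), σ ^ 2 = 1 := by decide
  have hσ := hσ' σ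
  have D2 : Diag T X ((MulAut.conj g * φ) ^ 2) 1 := by
    have := D.pow 2
    rwa [hσ] at this
  set β := (MulAut.conj g * φ) ^ 2 with hβ
  have hP := fix_PJ_of_diag R D2 J
  -- the restriction of `β` to `P_J`
  let b : ↥(PJ cs h T X J) →* ↥(PJ cs h T X J) :=
    { toFun := fun x => ⟨β x, (hP x).2 x.2⟩
      map_one' := Subtype.ext (by simp)
      map_mul' := fun x y => Subtype.ext (by simp) }
  obtain ⟨k, hk⟩ := exists_pow R hpr J l (l.comp b) hl (MonoidHom.ext fun x => by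
    have := congrArg (fun f : ↥(PJ cs h T X J) →* ℂˣ => f (b x)) hl
    simpa using this) t₀ hne hcyc
  have hb : ∀ x, l (b x) = l x ^ k := fun x => by
    have := congrArg (fun f : ↥(PJ cs h T X J) →* ℂˣ => f x) hk
    simpa using this
  have hk3 : ¬ 3 ∣ k := by
    rintro ⟨m, rfl⟩
    apply hne
    have hx : β⁻¹ (t₀ : Y) ∈ PJ cs h T X J := (hP.inv _).2 (T_le_PJ t₀.2)
    have h1 := hb ⟨β⁻¹ t₀, hx⟩
    have h2 : b ⟨β⁻¹ t₀, hx⟩ = ⟨t₀, T_le_PJ t₀.2⟩ := Subtype.ext (MulAut.apply_inv_self _ β (t₀ : Y))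
    rw [h2, pow_mul] at h1
    have h3 := congrArg (fun f : ↥(PJ cs h T X J) →* ℂˣ => f ⟨β⁻¹ t₀, hx⟩) hl
    have h4 : l ⟨β⁻¹ t₀, hx⟩ ^ 3 = 1 := by simpa using h3
    rw [h1, h4, one_pow]
  have hb2 : ∀ x, l (b (b x)) = l x := by
    intro x
    rw [hb, hb, ← pow_mul]
    have h3 := congrArg (fun f : ↥(PJ cs h T X J) →* ℂˣ => f x) hl
    have h4 : l x ^ 3 = 1 := by simpa using h3
    have h5 : k * k = 3 * ((k * k) / 3) + 1 := by
      have h6 : k * k % 3 = 1 := by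
        rw [Nat.mul_mod]
        have h7 : k % 3 = 1 ∨ k % 3 = 2 := by omega
        rcases h7 with h7 | h7 <;> rw [h7]
      omega
    rw [h5, pow_add, pow_mul, h4, one_pow, one_mul, pow_one]
  -- the conjugating element
  obtain ⟨c, hc⟩ : ∃ c : Y, (MulAut.conj g * φ) ^ 4 = MulAut.conj c * φ ^ 4 := by
    have key : ∀ k : ℕ, ∃ c : Y, (MulAut.conj g * φ) ^ k = MulAut.conj c * φ ^ k := by
      intro k
      induction k with
      | zero => exact ⟨1, by simp⟩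
      | succ k ih =>
        obtain ⟨c, hc⟩ := ih
        refine ⟨c * (φ ^ k) g, ?_⟩
        rw [pow_succ, hc, pow_succ]
        ext x
        simp only [MulAut.mul_apply, MulAut.conj_apply, map_mul, map_inv, mul_inv_rev, mul_assoc]
    exact key 4
  refine ⟨c⁻¹, fun a => ⟨b (b a), ?_, hb2 a⟩⟩
  have h1 : ((b (b a) : ↥(PJ cs h T X J)) : Y) = (MulAut.conj c * φ ^ 4) (a : Y) := by
    rw [← hc]
    show β (β a) = _
    rw [hβ, ← MulAut.mul_apply, ← pow_add]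
  rw [h1, MulAut.mul_apply, MulAut.conj_apply, inv_inv]
  simp only [mul_assoc, inv_mul_cancel, mul_one, inv_mul_cancel_left]

/-- **The row from a root group datum of rank two.**

`l₀` is a character of `T` of order three, trivial on `T ∩ M_J`, `t₀` generates `T` modulo `M_J`. -/
theorem row_of_rgd [Finite W] [Finite Y] [hr : Fact r.Prime] (hG1 : RGD.Sup X {x | IsRoot cs h x} = ⊤)
    (hpr : 3 ≠ r) (hout : CycOut Y) (J : Set (Fin 2)) (l₀ : T →* ℂˣ) (hl₀ : ∀ t, l₀ t ^ 3 = 1)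
    (h0 : ∀ t : T, (t : Y) ∈ MJ cs h X J → l₀ t = 1) (t₀ : T) (hne : l₀ t₀ ≠ 1)
    (hcyc : ∀ t : T, ∃ k : ℕ, ((t₀ : Y) ^ k)⁻¹ * t ∈ MJ cs h X J)
    (hidx : (PJ cs h T X J).index.factorization 3 = 1)
    (hs : ∀ w g, Rp cs R.nsys w g → w ∉ WJ cs J → (∀ i ∈ J, 0 ≤ rep cs h w⁻¹ (sr i)) →
      (∀ i ∈ J, 0 ≤ rep cs h w (sr i)) → ∃ t t' : T, (t' : Y) = g * t * g⁻¹ ∧ l₀ t' ≠ l₀ t) : Row 3 Y := by
  have hp : Fact (Nat.Prime 3) := ⟨Nat.prime_three⟩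
  have hG := Cfsg.Agent.KFacts.RgdRigid.GG_eq_top (T := T) hG1
  obtain ⟨l, hlT, hlM, hlV⟩ := exists_ext R J l₀ h0
  have hl3 : l ^ 3 = 1 := by
    ext ⟨x, hx⟩
    obtain ⟨a, ha, v, hv, rfl⟩ := (mem_PJ R).1 hx
    obtain ⟨t, ht, m, hm, rfl⟩ := (mem_LJ_iff_mul R J).1 ha
    have e : (⟨t * m * v, hx⟩ : ↥(PJ cs h T X J)) = ⟨t, T_le_PJ ht⟩ * ⟨m, MJ_le_PJ hm⟩ * ⟨v, VJ_le_PJ hv⟩ := rfl
    rw [MonoidHom.pow_apply, e, map_mul, map_mul, hlM m hm, hlV v hv, mul_one, mul_one, hlT ⟨t, ht⟩, hl₀]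
    rfl
  have hne' : l ⟨t₀, T_le_PJ t₀.2⟩ ≠ 1 := by rw [hlT]; exact hne
  refine row_of_lin hout (PJ cs h T X J) l ⟨1, by rw [pow_one]; exact hl3⟩ (mackey_rgd R hG J l ?_) hidx ?_
  · intro w g hg hw h1 h2
    obtain ⟨t, t', ht, hne⟩ := hs w g hg hw h1 h2
    exact ⟨t, t', ht, by rw [hlT, hlT]; exact hne⟩
  · rintro φ ⟨k, hk⟩
    refine inv_of_four (inv_two R hG1 hpr J l hl3 t₀ hne' hcyc) φ ?_
    have h1 : orderOf φ ∣ 3 ^ k := orderOf_dvd_of_pow_eq_one hk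
    exact Odd.of_dvd_nat (Odd.pow (by decide)) h1

end two

end Cfsg.Agent.H561.HT
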