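import Mathlib
import Cfsg.Agent.H316.HT.Defs
import Cfsg.Agent.H112.HT.Ind
import Cfsg.Agent.H624.HT.RowOf
import Cfsg.Agent.H700.PrinExt
import Cfsg.Agent.H719.HT.OutG
import Cfsg.Agent.H681.IP.Sec
import Cfsg.Agent.Transfer.FrobeniusFusion
import Cfsg.Agent.S0887
import Cfsg.Agent.S4459

/-!
# S4933: a group with a subgroup of index three in the automorphism group (triality) (helper561)

`row_tri` : `Γ` a subgroup of index 3 of `Aut S`, containing `Inn S`, with `Γ / Inn S` cyclic up to a group of order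
prime to 3; every 3-subgroup of `Γ` fixes a character of `B₀(S)` with `vd = 1`; `t, w` 3-elements of `S` generating a
3-group of class at least three, with all automorphisms fixing `t` in `Γ`. Then `Row 3 S`.
-/

set_option autoImplicit false
set_option linter.unusedSectionVars false

open Cfsg Subgroup

namespace Cfsg.Agent.H561.HT.Tri

open Cfsg.Agent.H316.HT Cfsg.Agent.Characters.Core Cfsg.Agent.H719.HT

universe u v

section grp

variable {P : Type u} [Group P] [Finite P]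

/-- in a quotient of prime order every element is a power of a nontrivial one, up to the subgroup -/
theorem exists_pow_mem {A : Subgroup P} [A.Normal] (h3 : A.index = 3) {t : P} (ht : t ∉ A) (x : P) :
    ∃ l : ℤ, t ^ l * x ∈ A := by
  have hp : Fact (Nat.Prime 3) := ⟨Nat.prime_three⟩
  have h1 : Nat.card (P ⧸ A) = 3 := h3
  have h2 : (QuotientGroup.mk' A t) ≠ 1 := by
    intro h
    exact ht ((QuotientGroup.eq_one_iff _).1 h)
  have h4 : zpowers (QuotientGroup.mk' A t) = ⊤ := zpowers_eq_top_of_prime_card h1 h2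
  have h5 : (QuotientGroup.mk' A x)⁻¹ ∈ zpowers (QuotientGroup.mk' A t) := by rw [h4]; exact mem_top _
  obtain ⟨l, hl⟩ := mem_zpowers_iff.1 h5
  refine ⟨l, ?_⟩
  rw [← QuotientGroup.eq_one_iff]
  show QuotientGroup.mk' A (t ^ l * x) = 1
  rw [map_mul, map_zpow, hl, inv_mul_cancel]

/-- **The vacuous part**: a 3-group with degrees 1 and 3. -/
theorem false_of_one (P1 : Subgroup P) (h1 : P1.index = 3) (hP : IsPGroup 3 P)
    (hcd : ∀ φ : IrrCharacter P, charDegree (φ : P → ℂ) = 1 ∨ charDegree (φ : P → ℂ) = 3)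
    {t w : P} (ht1 : t ∈ P1) (hw1 : w ∈ P1) (hc1 : Commute t (w * t * w⁻¹))
    (hc2 : Commute t (w * (w * t * w⁻¹) * w⁻¹))
    (hne : w * (t⁻¹ * (w * t * w⁻¹)) * w⁻¹ ≠ t⁻¹ * (w * t * w⁻¹))
    (hy : ∀ y : P, y * t = t * y → y ∈ P1) : False := by
  have hp3 : Fact (Nat.Prime 3) := ⟨Nat.prime_three⟩
  have htw : t * w ≠ w * t := by
    intro h
    apply hne
    have h2 : w * t * w⁻¹ = t := by rw [← h, mul_inv_cancel_right]
    rw [h2, inv_mul_cancel, mul_one, mul_inv_cancel]
  have hex : ∃ φ : IrrCharacter P, charDegree (φ : P → ℂ) = 3 := by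
    have hTD : H681.IP.TD 3 1 P := fun φ => by
      rcases hcd φ with h | h
      · exact Or.inl h
      · exact Or.inr (by rw [h, pow_one])
    obtain ⟨φ, hφ⟩ := hTD.exists_deg htw
    exact ⟨φ, by rwa [pow_one] at hφ⟩
  have ha : t⁻¹ * (w * t * w⁻¹) ∈ P1 := mul_mem (inv_mem ht1) (mul_mem (mul_mem hw1 ht1) (inv_mem hw1))
  rcases (Cfsg.Agent.S4459.result ⟨t, w, htw⟩ 3 Nat.prime_three).1 ⟨hcd, hex⟩ with ⟨A, hn, hab, hA⟩ | hZ
  · -- the abelian subgroup contains `t`
    have htA : t ∈ A := by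
      by_contra htA
      obtain ⟨l, hl⟩ := exists_pow_mem hA htA w
      have hcm : ∀ x y : P ⧸ A, x * y = y * x := by
        have h2 : IsCyclic (P ⧸ A) := isCyclic_of_prime_card (p := 3) hA
        intro x y
        let _ := IsCyclic.commGroup (α := P ⧸ A)
        exact mul_comm x y
      have h2 : t⁻¹ * (w * t * w⁻¹) ∈ A := by
        rw [← QuotientGroup.eq_one_iff]
        show QuotientGroup.mk' A (t⁻¹ * (w * t * w⁻¹)) = 1
        rw [map_mul, map_mul, map_mul, map_inv, map_inv, hcm (QuotientGroup.mk' A w), mul_inv_cancel_right,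
          inv_mul_cancel]
      have h4 := hab _ hl _ h2
      -- `w a w⁻¹` commutes with `t`
      have h5 : Commute t (w * (t⁻¹ * (w * t * w⁻¹)) * w⁻¹) := by
        have e : w * (t⁻¹ * (w * t * w⁻¹)) * w⁻¹ = (w * t * w⁻¹)⁻¹ * (w * (w * t * w⁻¹) * w⁻¹) := by group
        rw [e]
        exact hc1.inv_right.mul_right hc2
      have h6 : w * (t⁻¹ * (w * t * w⁻¹)) * w⁻¹ = t⁻¹ * (w * t * w⁻¹) := by
        have h7 : t ^ l * w * (t⁻¹ * (w * t * w⁻¹)) * (t ^ l * w)⁻¹ = t⁻¹ * (w * t * w⁻¹) := by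
          rw [h4, mul_inv_cancel_right]
        have h8 : t ^ l * w * (t⁻¹ * (w * t * w⁻¹)) * (t ^ l * w)⁻¹ =
            t ^ l * (w * (t⁻¹ * (w * t * w⁻¹)) * w⁻¹) * (t ^ l)⁻¹ := by group
        rw [h8, (h5.zpow_left l).eq, mul_inv_cancel_right] at h7
        exact h7
      exact hne h6
    -- `A` is not contained in `P1`
    have hAP : ¬ A ≤ P1 := by
      intro hle
      have h2 : A = P1 := by
        have h3 := relIndex_mul_index hle
        rw [h1, hA] at h3
        have h4 : A.relIndex P1 = 1 := by omega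
        exact le_antisymm hle (relIndex_eq_one.1 h4)
      have h3 : w ∈ A := by rw [h2]; exact hw1
      exact htw (hab t htA w h3)
    apply hAP
    intro y hyA
    exact hy y (hab y hyA t htA)
  · by_cases hle : center P ≤ P1
    · have h2 := relIndex_mul_index hle
      rw [h1, hZ] at h2
      have h3 : (center P).relIndex P1 = 3 ^ 2 := by omega
      -- the quotient of order nine is commutative
      have h4 : t⁻¹ * (w * t * w⁻¹) ∈ center P := by
        have hnn : ((center P).subgroupOf P1).Normal := inferInstance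
        have hcard : Nat.card (P1 ⧸ (center P).subgroupOf P1) = 3 ^ 2 := h3
        have hcm := IsPGroup.commutative_of_card_eq_prime_sq hcard
        have h5 : (QuotientGroup.mk' ((center P).subgroupOf P1))
            ((⟨t, ht1⟩ : P1)⁻¹ * (⟨w, hw1⟩ * ⟨t, ht1⟩ * (⟨w, hw1⟩ : P1)⁻¹)) = 1 := by
          rw [map_mul, map_mul, map_mul, map_inv, map_inv, hcm (QuotientGroup.mk' _ (⟨w, hw1⟩ : P1)),
            mul_inv_cancel_right, inv_mul_cancel]
        have h6 := (QuotientGroup.eq_one_iff _).1 h5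
        rw [mem_subgroupOf] at h6
        exact h6
      apply hne
      have h5 := mem_center_iff.1 h4 w
      rw [h5, mul_inv_cancel_right]
    · apply hle
      intro y hyZ
      exact hy y ((mem_center_iff.1 hyZ t).symm)

end grp

section main

variable {A : Type} [Group A] [Finite A] {N : Subgroup A} [hN : N.Normal] {S : Type u} [Group S] [Finite S]

/-- **cyclicity** for 3-subgroups acting through `Γ` -/
theorem cyc_of' {p : ℕ} [hp : Fact p.Prime] (hcen : centralizer (N : Set A) = ⊥) (e : N ≃* S)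
    (Γ : Subgroup (MulAut S)) (hI : (MulAut.conj : S →* MulAut S).range ≤ Γ) {C : Type v} [Group C] [IsCyclic C]
    (c : Γ →* C) {m : ℕ} (hm : ¬ p ∣ m)
    (hc : ∀ g : Γ, c g = 1 → (g : MulAut S) ^ m ∈ (MulAut.conj : S →* MulAut S).range)
    (hc' : ∀ s : S, c ⟨MulAut.conj s, hI ⟨s, rfl⟩⟩ = 1) {P : Subgroup A} (hP : IsPGroup p P)
    (hPΓ : P ≤ Γ.comap (cA e)) : IsCyclic (↥(N ⊔ P) ⧸ N.subgroupOf (N ⊔ P)) := by
  have hNΓ : N ≤ Γ.comap (cA e) := by
    intro n hn
    show cA e n ∈ Γ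
    rw [cA_mem e ⟨n, hn⟩]
    exact hI ⟨_, rfl⟩
  have hsup : N ⊔ P ≤ Γ.comap (cA e) := sup_le hNΓ hPΓ
  let g : ↥(N ⊔ P) →* Γ := ((cA e).comp (N ⊔ P).subtype).codRestrict Γ fun x => hsup x.2
  have hgN : ∀ n (hn : n ∈ N), c (g ⟨n, mem_sup_left hn⟩) = 1 := by
    intro n hn
    rw [← hc' (e ⟨n, hn⟩)]
    congr 1
    exact Subtype.ext (cA_mem e ⟨n, hn⟩)
  let f : ↥(N ⊔ P) →* C := c.comp g
  have hf : f.ker = N.subgroupOf (N ⊔ P) := by
    ext x
    rw [MonoidHom.mem_ker, mem_subgroupOf]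
    constructor
    · intro hx
      obtain ⟨x, hxm⟩ := x
      change x ∈ N
      obtain ⟨n, hn, y, hy, rfl⟩ := mem_sup_of_normal_left.1 hxm
      have h1 : c (g ⟨y, mem_sup_right hy⟩) = 1 := by
        have h2 : c (g ⟨n * y, hxm⟩) = c (g ⟨n, mem_sup_left hn⟩) * c (g ⟨y, mem_sup_right hy⟩) := by
          rw [← map_mul, ← map_mul]
          rfl
        have h3 : c (g ⟨n * y, hxm⟩) = 1 := hx
        rw [h3, hgN n hn, one_mul] at h2
        exact h2.symm
      obtain ⟨k, hk⟩ := pow_of_mem e hP hy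
      have h3 : cA e y ^ m ∈ (MulAut.conj : S →* MulAut S).range := hc _ h1
      have hcop : IsCoprime ((p ^ k : ℕ) : ℤ) (m : ℤ) := by
        rw [Nat.isCoprime_iff_coprime]
        exact Nat.Coprime.pow_left _ ((Nat.Prime.coprime_iff_not_dvd hp.out).2 hm)
      obtain ⟨u, v, huv⟩ := hcop
      have h4 : cA e y = (cA e y ^ p ^ k) ^ u * (cA e y ^ m) ^ v := by
        rw [← zpow_natCast (cA e y) (p ^ k), ← zpow_natCast (cA e y) m, ← zpow_mul, ← zpow_mul, ← zpow_add,
          mul_comm _ u, mul_comm _ v, huv, zpow_one]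
      have h5 : cA e y ∈ (MulAut.conj : S →* MulAut S).range := by
        rw [h4]
        exact mul_mem (zpow_mem hk u) (zpow_mem h3 v)
      exact N.mul_mem hn (mem_of_cA hcen e h5)
    · intro hx
      exact hgN x hx
  have e1 : ↥(N ⊔ P) ⧸ N.subgroupOf (N ⊔ P) ≃* f.range :=
    (QuotientGroup.quotientMulEquivOfEq hf.symm).trans (QuotientGroup.quotientKerEquivRange f)
  exact isCyclic_of_surjective e1.symm e1.symm.surjective

/-- **The extended character.** -/
theorem exists_ext {p : ℕ} [hp : Fact p.Prime] {M : Ideal AlgInt} (hM : IsPModular p M) (e : N ≃* S)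
    {P : Subgroup A} (hcyc : IsCyclic (↥(N ⊔ P) ⧸ N.subgroupOf (N ⊔ P)))
    (ψ : IrrCharacter S) (hψ : ψ ∈ principalBlock M S)
    (hinv : ∀ x ∈ P, ∀ s, (ψ : S → ℂ) (cA e x s) = (ψ : S → ℂ) s) :
    H700.PrinExt.mapIrr e ψ ∈ principalBlock M N ∧
    ∃ ξ : IrrCharacter ↥(N ⊔ P), charDegree (ξ : ↥(N ⊔ P) → ℂ) = charDegree (ψ : S → ℂ) ∧
      ∀ n : N, (ξ : ↥(N ⊔ P) → ℂ) ⟨n, mem_sup_left n.2⟩ = (H700.PrinExt.mapIrr e ψ : N → ℂ) n := by
  have hψm : H700.PrinExt.mapIrr e ψ ∈ principalBlock M N := H700.PrinExt.mapIrr_mem e hψ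
  refine ⟨hψm, ?_⟩
  have hNK : N ≤ N ⊔ P := le_sup_left
  set ψN : IrrCharacter N := H700.PrinExt.mapIrr e ψ with hψN
  have hval : ∀ n : N, (ψN : N → ℂ) n = (ψ : S → ℂ) (e n) := fun n => rfl
  have hinvK : ∀ x ∈ N ⊔ P, ∀ n : N, (ψN : N → ℂ) ⟨x * n * x⁻¹, hN.conj_mem _ n.2 x⟩ = (ψN : N → ℂ) n := by
    intro x hx n
    rw [Subgroup.mem_sup_of_normal_left] at hx
    obtain ⟨y, hy, z, hz, rfl⟩ := hx
    have h0 : (ψN : N → ℂ) ⟨z * n * z⁻¹, hN.conj_mem _ n.2 z⟩ = (ψN : N → ℂ) n := by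
      rw [hval, hval, ← hinv z hz (e n), cA_apply]
    rw [← h0]
    have h1 := isIrr_isClassFunction ψN.2 ⟨z * n * z⁻¹, hN.conj_mem _ n.2 z⟩ ⟨y, hy⟩
    rw [← h1]
    refine congrArg (ψN : N → ℂ) (Subtype.ext ?_)
    simp [mul_assoc]
  let f : N.subgroupOf (N ⊔ P) ≃* N := Subgroup.subgroupOfEquivOfLe hNK
  set ψ' : IrrCharacter (N.subgroupOf (N ⊔ P)) := H700.PrinExt.mapIrr f ψN with hψ'
  have hψ'm : ψ' ∈ principalBlock M (N.subgroupOf (N ⊔ P)) := H700.PrinExt.mapIrr_mem f hψm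
  obtain ⟨ξ, hξ, hξr, hξd⟩ := Cfsg.Agent.H112.HT.lift_mem hM (N.subgroupOf (N ⊔ P)) hcyc ψ' hψ'm (by
    intro g t
    have h1 : (ψ' : N.subgroupOf (N ⊔ P) → ℂ) (MulAut.conjNormal g t) = (ψN : N → ℂ) (f (MulAut.conjNormal g t)) := rfl
    have h2 : (ψ' : N.subgroupOf (N ⊔ P) → ℂ) t = (ψN : N → ℂ) (f t) := rfl
    rw [h1, h2, ← hinvK g g.2 (f t)]
    rfl)
  refine ⟨ξ, ?_, fun n => ?_⟩
  · rw [hξd, hψ', H700.PrinExt.charDegree_mapIrr, hψN, H700.PrinExt.charDegree_mapIrr]
  · have h1 := hξr ⟨⟨n, hNK n.2⟩, n.2⟩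
    rw [h1]
    rfl

end main

/-- **The row with triality.** -/
theorem row_tri {S : Type u} [Group S] [Finite S] (Γ : Subgroup (MulAut S)) (hΓ : Γ.index = 3)
    (hI : (MulAut.conj : S →* MulAut S).range ≤ Γ) {C : Type v} [Group C] [IsCyclic C] (c : Γ →* C) {m : ℕ}
    (hm : ¬ 3 ∣ m) (hc : ∀ g : Γ, c g = 1 → (g : MulAut S) ^ m ∈ (MulAut.conj : S →* MulAut S).range)
    (hc' : ∀ s : S, c ⟨MulAut.conj s, hI ⟨s, rfl⟩⟩ = 1) (X : Subgroup S) (hX : IsPGroup 3 X) {t w : S}
    (htX : t ∈ X) (hwX : w ∈ X) (hc1 : Commute t (w * t * w⁻¹)) (hc2 : Commute t (w * (w * t * w⁻¹) * w⁻¹))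
    (hne : w * (t⁻¹ * (w * t * w⁻¹)) * w⁻¹ ≠ t⁻¹ * (w * t * w⁻¹))
    (hKF : ∀ γ : MulAut S, γ t = t → γ ∈ Γ)
    (hinv : ∀ M : Ideal AlgInt, IsPModular 3 M → ∀ Q : Subgroup (MulAut S), IsPGroup 3 Q → Q ≤ Γ →
      ∃ ψ : IrrCharacter S, ψ ∈ principalBlock M S ∧ vd 3 (ψ : S → ℂ) = 1 ∧
        ∀ α ∈ Q, ∀ s, (ψ : S → ℂ) (α s) = (ψ : S → ℂ) s) : Row 3 S := by
  classical
  have hp3 : Fact (Nat.Prime 3) := ⟨Nat.prime_three⟩
  intro A _ _ N hN ⟨e⟩ hC M hM P a ha hcd
  have := Fintype.ofFinite A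
  have := Fintype.ofFinite N
  have hNΓ : N ≤ Γ.comap (cA e) := by
    intro n hn
    show cA e n ∈ Γ
    rw [cA_mem e ⟨n, hn⟩]
    exact hI ⟨_, rfl⟩
  -- the 3-subgroup acting through `Γ`
  set R : Subgroup A := (P : Subgroup A) ⊓ Γ.comap (cA e) with hR
  have hRP : R ≤ P := inf_le_left
  have hRp : IsPGroup 3 R := P.isPGroup'.to_le hRP
  obtain ⟨ψ, hψ, hψv, hψi⟩ := hinv M hM (R.map (cA e)) (hRp.map _) (by
    rintro _ ⟨x, hx, rfl⟩
    exact hx.2)
  have hcyc := cyc_of' hC e Γ hI c hm hc hc' hRp inf_le_right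
  obtain ⟨hψm, ξ, hξd, hξr⟩ := exists_ext hM e hcyc ψ hψ fun x hx s => hψi _ ⟨x, hx, rfl⟩ s
  set ψN : IrrCharacter N := H700.PrinExt.mapIrr e ψ with hψN
  have hψNd : charDegree (ψN : N → ℂ) = charDegree (ψ : S → ℂ) := H700.PrinExt.charDegree_mapIrr e ψ
  have hdvd : 3 ∣ charDegree (ψN : N → ℂ) := by
    rw [hψNd]
    refine Nat.dvd_of_factorization_pos ?_
    have h1 : (charDegree (ψ : S → ℂ)).factorization 3 = 1 := hψv
    rw [h1]
    exact one_ne_zero
  have hne1 : (ψN : N → ℂ) ≠ fun _ => 1 := by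
    intro h1
    have h2 : charDegree (ψN : N → ℂ) = 1 := by
      rw [h1]
      unfold charDegree
      simp
    rw [h2] at hdvd
    norm_num at hdvd
  have hξψ : ∀ [Fintype N], classInner (fun n : N => (ξ : ↥(N ⊔ R) → ℂ) ⟨n, mem_sup_left n.2⟩) (ψN : N → ℂ) ≠ 0 := by
    intro _
    have h1 : (fun n : N => (ξ : ↥(N ⊔ R) → ℂ) ⟨n, mem_sup_left n.2⟩) = (ψN : N → ℂ) := funext hξr
    rw [h1, classInner_irr_self ψN.2]
    exact one_ne_zero
  have hξv : vd 3 (ξ : ↥(N ⊔ R) → ℂ) = 1 := by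
    unfold vd
    rw [hξd]
    exact hψv
  by_cases hPR : (P : Subgroup A) ≤ Γ.comap (cA e)
  · have hRP' : R = P := le_antisymm hRP (le_inf le_rfl hPR)
    exact H624.HT.goodOn_of hM N P ψN hψm (N ⊔ R) (by rw [hRP']) ξ hξψ (by rw [hξv]; exact ha)
      (Or.inl hdvd) hne1
  · -- the group `P`
    set P1 : Subgroup (P : Subgroup A) := (Γ.comap (cA e)).subgroupOf P with hP1
    have hidx : P1.index = 3 := by
      have h1 : P1.index ≤ 3 := by
        have h2 : (Γ.comap (cA e)).index ≤ 3 := by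
          have h3 := Subgroup.index_comap Γ (cA e)
          have h4 : Γ.relIndex (cA e).range ≤ Γ.index := by
            rw [← Subgroup.relIndex_top_right]
            exact Subgroup.relIndex_le_of_le_right le_top (by rw [Subgroup.relIndex_top_right, hΓ]; norm_num)
          rw [h3]
          omega
        have h5 : (Γ.comap (cA e)).relIndex P ≤ (Γ.comap (cA e)).index := by
          rw [← Subgroup.relIndex_top_right]
          exact Subgroup.relIndex_le_of_le_right le_top (by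
            rw [Subgroup.relIndex_top_right]
            exact Subgroup.index_ne_zero_of_finite)
        exact h5.trans h2
      obtain ⟨k, hk⟩ : ∃ k, P1.index = 3 ^ k := P.isPGroup'.index P1
      have h2 : k ≠ 0 := by
        rintro rfl
        rw [pow_zero, Subgroup.index_eq_one] at hk
        apply hPR
        intro x hx
        have h3 : (⟨x, hx⟩ : (P : Subgroup A)) ∈ P1 := by rw [hk]; exact mem_top _
        exact h3
      have h3 : k = 1 := by
        by_contra h4
        have h5 : 2 ≤ k := by omega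
        have h6 : 3 ^ 2 ≤ 3 ^ k := Nat.pow_le_pow_right (by norm_num) h5
        omega
      rw [hk, h3, pow_one]
    -- `a ≥ 2`
    have ha2 : 2 ≤ a := by
      by_contra hlt
      have ha1 : a = 1 := by omega
      subst ha1
      -- the elements `t, w` in `P`
      obtain ⟨Q, hQ⟩ := Cfsg.Agent.Transfer.FrobeniusFusion.exists_sylow_subgroupOf P N
      obtain ⟨Q', hQ'⟩ := (hX.map (e.symm : S →* N)).exists_le_sylow
      obtain ⟨n, hn⟩ := MulAction.exists_smul_eq N Q' Q
      have key : ∀ s ∈ X, ((n * e.symm s * n⁻¹ : N) : A) ∈ (P : Subgroup A) := by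
        intro s hs
        have h1 : e.symm s ∈ (Q' : Subgroup N) := hQ' ⟨s, hs, rfl⟩
        have h2 : n * e.symm s * n⁻¹ ∈ (Q : Subgroup N) := by
          rw [← hn, Sylow.coe_subgroup_smul, Subgroup.mem_pointwise_smul_iff_inv_smul_mem]
          have h3 : (MulAut.conj n)⁻¹ • (n * e.symm s * n⁻¹) = e.symm s := by
            rw [← map_inv]
            show n⁻¹ * (n * e.symm s * n⁻¹) * n⁻¹⁻¹ = _
            group
          rw [h3]
          exact h1
        rw [hQ, mem_subgroupOf] at h2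
        exact h2
      let F : S →* A := N.subtype.comp ((MulAut.conj n).toMonoidHom.comp (e.symm : S →* N))
      have hF : ∀ s, F s = ((n * e.symm s * n⁻¹ : N) : A) := fun s => rfl
      have hFi : Function.Injective F := by
        intro x y hxy
        have h1 : MulAut.conj n (e.symm x) = MulAut.conj n (e.symm y) := Subtype.ext hxy
        exact e.symm.injective ((MulAut.conj n).injective h1)
      have hFP : ∀ s (hs : s ∈ X), F s ∈ (P : Subgroup A) := key
      have hFΓ : ∀ s (hs : s ∈ X), (⟨F s, hFP s hs⟩ : (P : Subgroup A)) ∈ P1 := by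
        intro s hs
        show cA e (F s) ∈ Γ
        rw [hF, cA_mem]
        exact hI ⟨_, rfl⟩
      refine false_of_one P1 hidx P.isPGroup' (fun φ => by
        have := hcd.1 φ
        rwa [pow_one] at this) (t := ⟨F t, hFP t htX⟩) (w := ⟨F w, hFP w hwX⟩) (hFΓ t htX) (hFΓ w hwX) ?_ ?_ ?_ ?_
      · exact Subtype.ext (show F t * (F w * F t * (F w)⁻¹) = F w * F t * (F w)⁻¹ * F t from by
          have := congrArg F hc1.eq
          simpa only [map_mul, map_inv] using this)
      · exact Subtype.ext (show F t * (F w * (F w * F t * (F w)⁻¹) * (F w)⁻¹) =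
            F w * (F w * F t * (F w)⁻¹) * (F w)⁻¹ * F t from by
          have := congrArg F hc2.eq
          simpa only [map_mul, map_inv] using this)
      · intro h
        apply hne
        apply hFi
        have h0 : F w * ((F t)⁻¹ * (F w * F t * (F w)⁻¹)) * (F w)⁻¹ = (F t)⁻¹ * (F w * F t * (F w)⁻¹) :=
          congrArg Subtype.val h
        simpa only [map_mul, map_inv] using h0
      · rintro ⟨y, hy⟩ hyt
        show cA e y ∈ Γ
        have h1 : y * F t = F t * y := congrArg Subtype.val hyt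
        -- the automorphism fixes `g t g⁻¹`
        have h2 : cA e y (e n * t * (e n)⁻¹) = e n * t * (e n)⁻¹ := by
          have h3 : e n * t * (e n)⁻¹ = e (n * e.symm t * n⁻¹) := by
            rw [map_mul, map_mul, map_inv, e.apply_symm_apply]
          rw [h3, cA_apply]
          congr 1
          apply Subtype.ext
          show y * F t * y⁻¹ = F t
          rw [h1, mul_inv_cancel_right]
        have h4 : (MulAut.conj (e n))⁻¹ * cA e y * MulAut.conj (e n) ∈ Γ := by
          apply hKF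
          rw [MulAut.mul_apply, MulAut.mul_apply, MulAut.conj_apply, h2, ← MulAut.conj_apply, MulAut.inv_apply_self]
        have h5 : MulAut.conj (e n) ∈ Γ := hI ⟨_, rfl⟩
        have h6 : cA e y = MulAut.conj (e n) * ((MulAut.conj (e n))⁻¹ * cA e y * MulAut.conj (e n)) *
            (MulAut.conj (e n))⁻¹ := by group
        rw [h6]
        exact mul_mem (mul_mem h5 h4) (inv_mem h5)
    -- the subgroup of index three in `N P`
    set K : Subgroup A := N ⊔ (P : Subgroup A) with hK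
    have hRK : N ⊔ R ≤ K := sup_le_sup le_rfl hRP
    set L : Subgroup K := (N ⊔ R).subgroupOf K with hL
    have hPn : (P : Subgroup A) ≤ normalizer ((N ⊔ R : Subgroup A) : Set A) := by
      have h1 : P1.Normal := H681.IP.normal_of_index Nat.prime_three P.isPGroup' hidx
      have hRn : ∀ x ∈ (P : Subgroup A), ∀ y ∈ R, x * y * x⁻¹ ∈ R := by
        intro x hx y hy
        have h2 : x * y * x⁻¹ ∈ (P : Subgroup A) := mul_mem (mul_mem hx (hRP hy)) (inv_mem hx)
        have h3 : (⟨x, hx⟩ * ⟨y, hRP hy⟩ * (⟨x, hx⟩ : (P : Subgroup A))⁻¹ : (P : Subgroup A)) ∈ P1 :=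
          h1.conj_mem ⟨y, hRP hy⟩ hy.2 ⟨x, hx⟩
        exact ⟨h2, h3⟩
      have key : ∀ x ∈ (P : Subgroup A), ∀ y ∈ N ⊔ R, x * y * x⁻¹ ∈ N ⊔ R := by
        intro x hx y hy
        rw [mem_sup_of_normal_left] at hy ⊢
        obtain ⟨n, hn, z, hz, rfl⟩ := hy
        exact ⟨x * n * x⁻¹, hN.conj_mem n hn x, x * z * x⁻¹, hRn x hx z hz, by group⟩
      intro x hx
      rw [mem_normalizer_iff]
      intro y
      refine ⟨fun hy => key x hx y hy, fun hy => ?_⟩
      have h2 := key x⁻¹ (inv_mem hx) _ hy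
      have e2 : x⁻¹ * (x * y * x⁻¹) * x⁻¹⁻¹ = y := by group
      rwa [e2] at h2
    have hKn : K ≤ normalizer ((N ⊔ R : Subgroup A) : Set A) :=
      sup_le (le_trans le_sup_left le_normalizer) hPn
    have hLn : L.Normal := (normal_subgroupOf_iff_le_normalizer hRK).2 hKn
    have hLi : L.index ∣ 3 := by
      let φ : (P : Subgroup A) →* K ⧸ L := (QuotientGroup.mk' L).comp (Subgroup.inclusion le_sup_right)
      have hφs : Function.Surjective φ := by
        intro q
        obtain ⟨⟨k, hk⟩, rfl⟩ := QuotientGroup.mk'_surjective L q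
        obtain ⟨n, hn, y, hy, rfl⟩ := mem_sup_of_normal_left.1 hk
        refine ⟨⟨y, hy⟩, ?_⟩
        refine (QuotientGroup.eq (s := L)).2 ?_
        rw [hL, mem_subgroupOf]
        have e1 : ((((Subgroup.inclusion (le_sup_right : (P : Subgroup A) ≤ K) ⟨y, hy⟩)⁻¹ * ⟨n * y, hk⟩ : K)) : A) =
            y⁻¹ * n * y⁻¹⁻¹ := by
          show y⁻¹ * (n * y) = _
          group
        rw [e1]
        exact mem_sup_left (hN.conj_mem n hn y⁻¹)
      have hφk : P1 ≤ φ.ker := by
        rintro ⟨y, hy⟩ hy1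
        rw [MonoidHom.mem_ker]
        refine (QuotientGroup.eq_one_iff _).2 ?_
        rw [hL, mem_subgroupOf]
        exact mem_sup_right ⟨hy, hy1⟩
      have h1 : L.index = φ.ker.index := by
        rw [Subgroup.index_ker, MonoidHom.range_eq_top.2 hφs, Subgroup.index_eq_card]
        exact (Nat.card_congr Subgroup.topEquiv.toEquiv).symm
      rw [h1]
      have h2 := Subgroup.index_dvd_of_le hφk
      rwa [hidx] at h2
    have := Fintype.ofFinite K
    have := Fintype.ofFinite L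
    have := Fintype.ofFinite ↥(N ⊔ R)
    let f : L ≃* ↥(N ⊔ R) := Subgroup.subgroupOfEquivOfLe hRK
    set ξ' : IrrCharacter L := H700.PrinExt.mapIrr f ξ with hξ'
    obtain ⟨χ, hχ, hχξ⟩ := Cfsg.Agent.CharDeep.PowerDegrees.exists_irr_over L ξ'.2
    have hξ'd : charDegree (ξ' : L → ℂ) = charDegree (ψ : S → ℂ) := by
      rw [hξ', H700.PrinExt.charDegree_mapIrr, hξd]
    have hχv : vd 3 χ ≤ 2 := by
      obtain ⟨hd1, hd2⟩ := S0887.result L χ hχ (ξ' : L → ℂ) ξ'.2 hχξ (charDegree χ) (charDegree (ξ' : L → ℂ))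
        (Blocks.Basic.irr_one_eq_charDegree hχ) (Blocks.Basic.irr_one_eq_charDegree ξ'.2)
      have hd3 := hd2.trans hLi
      have h0 : charDegree (ξ' : L → ℂ) ≠ 0 := (Blocks.Basic.charDegree_pos ξ'.2).ne'
      obtain ⟨k, hk⟩ := hd1
      rw [hk, Nat.mul_div_cancel_left _ (Nat.pos_of_ne_zero h0)] at hd3
      have hk0 : k ≠ 0 := by
        rintro rfl
        norm_num at hd3
      unfold vd
      rw [hk, Nat.factorization_mul h0 hk0, Finsupp.add_apply, hξ'd]
      have h5 : (charDegree (ψ : S → ℂ)).factorization 3 = 1 := hψv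
      have h6 : k.factorization 3 ≤ 1 := by
        rcases (Nat.dvd_prime Nat.prime_three).1 hd3 with h7 | h7
        · rw [h7]; simp
        · rw [h7, Nat.prime_three.factorization_self]
      omega
    refine H624.HT.goodOn_of hM N P ψN hψm K hK ⟨χ, hχ⟩ ?_ (hχv.trans ha2) (Or.inl hdvd) hne1
    intro _
    let j : N →* L := (f.symm : ↥(N ⊔ R) →* L).comp (Subgroup.inclusion le_sup_left)
    exact Cfsg.Agent.H955.FS.constituent_trans j (α := fun x : L => χ x)
      (isCharacter_comp L.subtype (isIrr_isCharacter hχ)) ξ'.2 ψN.2 hχξ hξψ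

end Cfsg.Agent.H561.HT.Tri
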